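import Mathlib
import Cfsg.Prelude.Def_PLocal
import Cfsg.Agent.Lib.Helper57.Replacement

set_option autoImplicit false

namespace Cfsg.Agent.Lib.Helper57

open scoped commutatorElement

variable {G : Type*} [Group G]

theorem card_lt_of_lt [Finite G] {H K : Subgroup G} (h : H < K) : Nat.card H < Nat.card K := by
  by_contra hcon
  exact h.ne (Subgroup.eq_of_le_of_card_ge h.le (not_lt.1 hcon))

theorem fam_dStarOf (T : Subgroup G) [Finite T] [Group.IsNilpotent T] :
    Fam T (Cfsg.dStarOf T) :=
  mem_dStarFamily_subtype_iff.1 dStar_mem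

theorem normalizer_le_normalizer_dStarOf (T : Subgroup G) [Finite T] [Group.IsNilpotent T] :
    Subgroup.normalizer (T : Set G) ≤ Subgroup.normalizer (Cfsg.dStarOf T : Set G) := by
  rw [Subgroup.le_normalizer_iff]
  intro g hg d hd
  have h1 : Fam (T.map (MulAut.conj g).toMonoidHom) ((Cfsg.dStarOf T).map (MulAut.conj g).toMonoidHom) :=
    (fam_map_iff _ (MulAut.conj g).injective).2 (fam_dStarOf T)
  have h2 : T.map (MulAut.conj g).toMonoidHom = T := Subgroup.mem_normalizer_iff_map_conj_eq.1 hg
  rw [h2] at h1
  apply h1.le_dStarOf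
  exact ⟨d, hd, by simp [MulAut.conj_apply]⟩

theorem dStar_normal [Finite G] [Group.IsNilpotent G] : (Cfsg.dStar G).Normal := by
  constructor
  intro d hd g
  have h1 : Fam ((⊤ : Subgroup G).map (MulAut.conj g).toMonoidHom)
      ((Cfsg.dStar G).map (MulAut.conj g).toMonoidHom) :=
    (fam_map_iff _ (MulAut.conj g).injective).2 (mem_dStarFamily_iff.1 dStar_mem)
  have h2 : (⊤ : Subgroup G).map (MulAut.conj g).toMonoidHom = ⊤ :=
    Subgroup.map_top_of_surjective _ (MulAut.conj g).surjective
  rw [h2, ← mem_dStarFamily_iff] at h1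
  exact (le_sSup h1 : _ ≤ Cfsg.dStar G) ⟨d, hd, by simp [MulAut.conj_apply]⟩

/-- `D*(S)` lies in every abelian subgroup of maximal order. -/
theorem dStar_le_maxAbelian [Finite G] [Group.IsNilpotent G] :
    ∀ B ∈ Cfsg.maxAbelianSubgroups G, Cfsg.dStar G ≤ B := by
  set D := Cfsg.dStar G with hD
  have hDfam : Fam ⊤ D := mem_dStarFamily_iff.1 dStar_mem
  have hDc : IsMulCommutative D := hDfam.2.1
  have hDn : D.Normal := dStar_normal
  have key : ∀ n : ℕ, ∀ B ∈ Cfsg.maxAbelianSubgroups G,
      Nat.card D - Nat.card ↥(B ⊓ D) = n → D ≤ B := by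
    intro n
    induction n using Nat.strong_induction_on with
    | _ n ih =>
      intro B hB hn
      have hBc := hB.1
      by_cases hDB : D ≤ Subgroup.normalizer (B : Set G)
      · have hcen : ∀ x ∈ B, ∀ d ∈ D, d * x = x * d := by
          intro x hx
          apply hDfam.2.2 x trivial
          apply cl2_of (C := D ⊓ B)
          · intro a ha c hc
            exact setLike_mul_comm ha hc.1
          · intro c hc
            exact setLike_mul_comm (s := B) hx hc.2
          · intro a ha
            refine Subgroup.mem_inf.2 ⟨?_, ?_⟩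
            · rw [commutatorElement_def]
              exact D.mul_mem (hDn.conj_mem a ha x) (D.inv_mem ha)
            · have : ⁅x, a⁆ = x * (a * x⁻¹ * a⁻¹) := by
                simp only [commutatorElement_def]; group
              rw [this]
              exact B.mul_mem hx ((Subgroup.le_normalizer_iff.1 hDB) a ha x⁻¹ (B.inv_mem hx))
        have hDcen : D ≤ Subgroup.centralizer (B : Set G) := by
          intro d hd
          rw [Subgroup.mem_centralizer_iff]
          intro x hx
          exact (hcen x hx d hd).symm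
        have hsup : IsMulCommutative ↥(B ⊔ D) := isMulCommutative_sup hDcen
        have hcard := hB.2 (B ⊔ D) hsup
        have heq : B = B ⊔ D := Subgroup.eq_of_le_of_card_ge le_sup_left hcard
        rw [heq]; exact le_sup_right
      · obtain ⟨Bs, hBs, hlt, hnorm, -⟩ := thompson_replacement hB hDB
        have hlt' := card_lt_of_lt hlt
        have hle : Nat.card ↥(Bs ⊓ D) ≤ Nat.card D := Subgroup.card_le_of_le inf_le_right
        have := ih (Nat.card D - Nat.card ↥(Bs ⊓ D)) (by omega) Bs hBs rfl
        exact absurd (this.trans hnorm) hDB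
  intro B hB
  exact key _ B hB rfl

theorem exists_maxAbelian [Finite G] : ∃ B : Subgroup G, B ∈ Cfsg.maxAbelianSubgroups G := by
  have hfin : ({M : Subgroup G | IsMulCommutative M}).Finite := Set.toFinite _
  have hne : ({M : Subgroup G | IsMulCommutative M}).Nonempty := ⟨⊥, inferInstanceAs (IsMulCommutative (⊥ : Subgroup G))⟩
  obtain ⟨B, hB, hmax⟩ := Set.exists_max_image _ (fun M : Subgroup G => Nat.card M) hfin hne
  exact ⟨B, hB, fun X hX => hmax X hX⟩

end Cfsg.Agent.Lib.Helper57
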