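import Mathlib
import Cfsg.Agent.Lib.Helper57.FC12

set_option autoImplicit false

/-! Conversion between `Gen` and explicit factorizations `a = c * b₁ ⋯ bₙ`. -/

namespace Cfsg.Agent.Lib.Helper57.FC

open Cfsg.Agent.Lib.Helper39

variable {G : Type*} [Group G]

/-- list form of generated fusion (right conjugation convention) -/
def LG (𝓗 : Set (Subgroup G)) (S B : Subgroup G) (a : G) : Prop :=
  ∃ c ∈ Subgroup.centralizer (B : Set G), ∃ l : List G, (∀ z ∈ l, ∃ H ∈ 𝓗, z ∈ H) ∧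
    a = c * l.prod ∧ ∀ k : ℕ, cj ((l.take k).prod)⁻¹ B ≤ S

variable {𝓗 : Set (Subgroup G)} {S : Subgroup G}

theorem cj_eq_of_mem_centralizer {c : G} {B : Subgroup G}
    (hc : c ∈ Subgroup.centralizer (B : Set G)) : cj c B = B :=
  cj_eq_of_mem_normalizer (Subgroup.centralizer_le_normalizer _ hc)

theorem gen_of_list : ∀ (l : List G) (B : Subgroup G), (∀ z ∈ l, ∃ H ∈ 𝓗, z ∈ H) →
    (∀ k : ℕ, cj ((l.take k).prod)⁻¹ B ≤ S) → Gen 𝓗 S B (l.prod)⁻¹ := by
  intro l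
  induction l with
  | nil =>
    intro B _ h
    have h0 := h 0
    simp only [List.take_nil, List.prod_nil, inv_one, cj_one] at h0
    simpa using Gen.one h0
  | cons z l ih =>
    intro B hz h
    have h0 := h 0
    have h1 := h 1
    simp only [List.take_zero, List.prod_nil, inv_one, cj_one] at h0
    simp only [List.take_succ_cons, List.take_zero, List.prod_cons, List.prod_nil, mul_one] at h1
    obtain ⟨H, hH, hzH⟩ := hz z (List.mem_cons_self)
    have g1 : Gen 𝓗 S B z⁻¹ := Gen.base hH (H.inv_mem hzH) h0 h1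
    have g2 : Gen 𝓗 S (cj z⁻¹ B) (l.prod)⁻¹ := by
      apply ih _ (fun w hw => hz w (List.mem_cons_of_mem _ hw))
      intro k
      have := h (k + 1)
      simp only [List.take_succ_cons, List.prod_cons, mul_inv_rev] at this
      rwa [cj_mul] at this
    have := Gen.comp g1 g2
    rwa [← mul_inv_rev, ← List.prod_cons] at this

theorem LG.gen {B : Subgroup G} {a : G} (h : LG 𝓗 S B a) : Gen 𝓗 S B a⁻¹ := by
  obtain ⟨c, hc, l, hl, rfl, hk⟩ := h
  refine Gen.ext (gen_of_list l B hl hk) ?_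
  intro b hb
  have h1 : b * c = c * b := Subgroup.mem_centralizer_iff.mp hc b hb
  have h2 : c⁻¹ * b * c = b := by rw [mul_assoc, h1, inv_mul_cancel_left]
  calc (c * l.prod)⁻¹ * b * (c * l.prod)⁻¹⁻¹ = l.prod⁻¹ * (c⁻¹ * b * c) * l.prod⁻¹⁻¹ := by group
    _ = l.prod⁻¹ * b * l.prod⁻¹⁻¹ := by rw [h2]

theorem Gen.lg {B : Subgroup G} {g : G} (h : Gen 𝓗 S B g) : LG 𝓗 S B g⁻¹ := by
  induction h with
  | @base H B x h1 h2 h3 h4 =>
    refine ⟨1, one_mem _, [x⁻¹], ?_, by simp, ?_⟩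
    · intro z hz
      rw [List.mem_singleton] at hz
      subst hz
      exact ⟨H, h1, H.inv_mem h2⟩
    · intro k
      rcases k with _ | k
      · simpa [cj_one] using h3
      · simpa using h4
  | one h =>
    refine ⟨1, one_mem _, [], by simp, by simp, ?_⟩
    intro k
    simpa [cj_one] using h
  | @comp B g h _ _ ih1 ih2 =>
    obtain ⟨c₁, hc₁, l₁, hl₁, e₁, hk₁⟩ := ih1
    obtain ⟨c₂, hc₂, l₂, hl₂, e₂, hk₂⟩ := ih2
    have hπ : l₁.prod = c₁⁻¹ * g⁻¹ := by rw [e₁]; group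
    have hcjπ : cj (l₁.prod)⁻¹ B = cj g B := by
      rw [hπ]
      have : (c₁⁻¹ * g⁻¹)⁻¹ = g * c₁ := by group
      rw [this, cj_mul, cj_eq_of_mem_centralizer hc₁]
    have hc₂' : g⁻¹ * c₂ * g ∈ Subgroup.centralizer (B : Set G) := by
      have h1 : c₂ ∈ cj g (Subgroup.centralizer (B : Set G)) := by
        rw [cj_centralizer]; exact hc₂
      exact mem_cj.mp h1
    refine ⟨c₁ * (l₁.prod * c₂ * (l₁.prod)⁻¹), ?_, l₁ ++ l₂, ?_, ?_, ?_⟩
    · apply Subgroup.mul_mem _ hc₁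
      rw [hπ]
      have : c₁⁻¹ * g⁻¹ * c₂ * (c₁⁻¹ * g⁻¹)⁻¹ = c₁⁻¹ * (g⁻¹ * c₂ * g) * c₁ := by group
      rw [this]
      exact Subgroup.mul_mem _ (Subgroup.mul_mem _ (Subgroup.inv_mem _ hc₁) hc₂') hc₁
    · intro z hz
      rcases List.mem_append.mp hz with hz | hz
      · exact hl₁ z hz
      · exact hl₂ z hz
    · rw [mul_inv_rev, e₁, e₂, List.prod_append]; group
    · intro k
      rw [List.take_append, List.prod_append]
      rcases le_total k l₁.length with hk | hk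
      · rw [Nat.sub_eq_zero_of_le hk]
        simpa using hk₁ k
      · rw [List.take_of_length_le hk, mul_inv_rev, cj_mul, hcjπ]
        exact hk₂ _
  | @ext B g g' _ h ih =>
    obtain ⟨c, hc, l, hl, e, hk⟩ := ih
    refine ⟨g'⁻¹ * g * c, ?_, l, hl, ?_, hk⟩
    · apply Subgroup.mul_mem _ _ hc
      rw [Subgroup.mem_centralizer_iff]
      intro b hb
      have h1 := h b hb
      calc b * (g'⁻¹ * g) = g'⁻¹ * (g' * b * g'⁻¹) * g := by group
        _ = g'⁻¹ * (g * b * g⁻¹) * g := by rw [h1]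
        _ = g'⁻¹ * g * b := by group
    · rw [mul_assoc, mul_assoc, ← e]; group

/-- conjugating a control statement -/
theorem Gen.conj {𝓗' : Set (Subgroup G)} (h : G) (hH : ∀ H ∈ 𝓗, cj h H ∈ 𝓗') {B : Subgroup G}
    {g : G} (hg : Gen 𝓗 S B g) : Gen 𝓗' (cj h S) (cj h B) (h * g * h⁻¹) :=
  Gen.map (MulAut.conj h).toMonoidHom (fun H hHm => ⟨_, hH H hHm, le_rfl⟩) hg

theorem CtlIn.conj {𝓗' : Set (Subgroup G)} {K : Subgroup G} (h : G) (hK : h ∈ K)
    (hH : ∀ H ∈ 𝓗, cj h H ∈ 𝓗') (hc : CtlIn 𝓗 S K) : CtlIn 𝓗' (cj h S) K := by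
  intro B hB g hg hgB
  have h1 : cj h⁻¹ B ≤ S := by rw [cj_le_iff, inv_inv]; exact hB
  have h2 : cj (h⁻¹ * g * h) (cj h⁻¹ B) ≤ S := by
    rw [← cj_mul]
    have : h⁻¹ * g * h * h⁻¹ = h⁻¹ * g := by group
    rw [this, cj_mul, cj_le_iff, inv_inv]; exact hgB
  have h3 := (hc _ h1 (h⁻¹ * g * h) (K.mul_mem (K.mul_mem (K.inv_mem hK) hg) hK) h2).conj h hH
  rw [cj_cj_inv] at h3
  have : h * (h⁻¹ * g * h) * h⁻¹ = g := by group
  rwa [this] at h3

end Cfsg.Agent.Lib.Helper57.FC
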