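import Mathlib
import Cfsg.Agent.Lib.Helper57.FC13
import Cfsg.Prelude.Def_ConjugacyFunctors

set_option autoImplicit false

/-! Local-to-global for a conjugacy functor `W ≥ Z` together with a central functor `V`. -/

namespace Cfsg.Agent.Lib.Helper57.FC

open Cfsg Cfsg.Agent.Lib.Helper39

variable {G : Type*} [Group G]

/-- the two subgroups `N(W T)`, `C(V T)` -/
def HWV (W V : Subgroup G → Subgroup G) (T : Subgroup G) : Set (Subgroup G) :=
  {Subgroup.normalizer ((W T : Subgroup G) : Set G), Subgroup.centralizer ((V T : Subgroup G) : Set G)}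

theorem cj_mem_HWV {p : ℕ} {W V : Subgroup G → Subgroup G} (hW : IsConjugacyFunctor p W)
    (hV : IsConjugacyFunctor p V) {Q : Subgroup G} (hQ : IsPGroup p Q) (h : G) :
    ∀ H ∈ HWV W V Q, cj h H ∈ HWV W V (cj h Q) := by
  intro H hH
  rcases hH with rfl | hH
  · left
    rw [cj_normalizer, functor_cj hW hQ]
  · right
    rw [Set.mem_singleton_iff] at hH
    subst hH
    rw [cj_centralizer, functor_cj hV hQ]
    rfl

theorem ctl_WV [Finite G] {p : ℕ} [Fact p.Prime] (S : Sylow p G) (hS : (S : Subgroup G) ≠ ⊥)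
    (W V : Subgroup G → Subgroup G) (hW : IsConjugacyFunctor p W) (hV : IsConjugacyFunctor p V)
    (hWZ : ∀ H : Subgroup G, IsPGroup p H → H ⊓ Subgroup.centralizer (H : Set G) ≤ W H)
    (hVmono : ∀ H K : Subgroup G, IsPGroup p H → IsPGroup p K → H ≠ ⊥ → K ≠ ⊥ →
      H ⊓ Subgroup.centralizer (H : Set G) ≤ K ⊓ Subgroup.centralizer (K : Set G) → V H ≤ V K)
    (hloc : ∀ H : Subgroup G,
      (S : Subgroup G) ⊓ Subgroup.centralizer ((S : Subgroup G) : Set G) ≤ H →
      H ≤ (S : Subgroup G) → ∃ Q : Subgroup G, Q ≤ Subgroup.normalizer (H : Set G) ∧ IsPGroup p Q ∧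
        ¬ p ∣ Q.relIndex (Subgroup.normalizer (H : Set G)) ∧
        CtlIn (HWV W V Q) Q (Subgroup.normalizer (H : Set G))) :
    Ctl (HWV W V (S : Subgroup G)) (S : Subgroup G) := by
  apply centric_skeleton S W (fun T hT => (hW T (S.2.to_le hT)).1)
    (fun T hT => hWZ T (S.2.to_le hT)) (fun T hT g => functor_cj hW (S.2.to_le hT) g)
    (Gen (HWV W V (S : Subgroup G)) (S : Subgroup G))
  · intro B B' g hB h; exact h.mono hB
  · intro B g h h1 h2; exact Gen.comp h1 h2
  · intro B g h; exact h.symm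
  · intro B g g' h h'; exact Gen.ext h h'
  · intro x hx X hX hxX
    exact Gen.base (Or.inl rfl) hx hX hxX
  · intro H hZ hHS htame hN y hy X hX hyX
    obtain ⟨Q, hQN, hQp, hQidx, hQ⟩ := hloc H hZ hHS
    obtain ⟨h, hh, hhQ⟩ := sylow_conj hQN hQp hQidx inf_le_right (S.2.to_le inf_le_left) htame
    have h1 := hQ.conj h hh (cj_mem_HWV hW hV hQp h)
    rw [hhQ] at h1
    refine Gen.trans' inf_le_left ?_ (h1 X hX y hy hyX)
    intro H' hH' x hx B hB hxB
    rcases hH' with rfl | hH'
    · exact hN x hx B hB hxB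
    · rw [Set.mem_singleton_iff] at hH'
      subst hH'
      have hHT : H ≤ (S : Subgroup G) ⊓ Subgroup.normalizer (H : Set G) :=
        le_inf hHS Subgroup.le_normalizer
      have hTne : (S : Subgroup G) ⊓ Subgroup.normalizer (H : Set G) ≠ ⊥ := by
        rcases eq_or_lt_of_le hHS with heq | hlt
        · rw [heq, inf_of_le_left Subgroup.le_normalizer]; exact hS
        · exact ne_bot_of_gt (lt_inf_normalizer S.2 hlt)
      have hVV : V (S : Subgroup G) ≤ V ((S : Subgroup G) ⊓ Subgroup.normalizer (H : Set G)) := by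
        apply hVmono _ _ S.2 (S.2.to_le inf_le_left) hS hTne
        exact le_inf (hZ.trans hHT) (inf_le_right.trans (Subgroup.centralizer_le inf_le_left))
      exact Gen.base (Or.inr rfl) (Subgroup.centralizer_le hVV hx) (hB.trans inf_le_left)
        (hxB.trans inf_le_left)

end Cfsg.Agent.Lib.Helper57.FC
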