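import Mathlib
import Cfsg.Agent.Lib.Helper57.FC14
import Cfsg.Agent.Lib.Helper39.RelAlperin

set_option autoImplicit false

/-! Local-to-global for control of transfer by `W ≥ Z` together with a central functor `V`. -/

namespace Cfsg.Agent.Lib.Helper57.FC

open Cfsg Cfsg.Agent.Lib.Helper39
open scoped commutatorElement

variable {G : Type*} [Group G]

/-- relative focal subgroup theorem (one inclusion) -/
theorem rel_focal_le [Finite G] {p : ℕ} [Fact p.Prime] {L T K : Subgroup G} (hTL : T ≤ L)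
    (hT : IsPGroup p T) (hidx : ¬ p ∣ T.relIndex L)
    (h : ∀ x ∈ T, ∀ u ∈ L, u * x * u⁻¹ ∈ T → u * x * u⁻¹ * x⁻¹ ∈ K) : T ⊓ ⁅L, L⁆ ≤ K := by
  have hTp : IsPGroup p (T.subgroupOf L) := hT.comap_subtype
  let TL : Sylow p ↥L := hTp.toSylow hidx
  have hfoc := Subgroup.commutator_inf_eq_focalSubgroup (P := TL)
  intro z hz
  have hzL : z ∈ L := hTL hz.1
  have h1 : (⟨z, hzL⟩ : ↥L) ∈ _root_.commutator ↥L ⊓ (TL : Subgroup ↥L) := by
    refine ⟨?_, hz.1⟩
    have h2 : z ∈ (⁅(⊤ : Subgroup ↥L), (⊤ : Subgroup ↥L)⁆ : Subgroup ↥L).map L.subtype := by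
      rw [Subgroup.map_commutator, ← MonoidHom.range_eq_map, Subgroup.range_subtype]
      exact hz.2
    obtain ⟨w, hw, hwz⟩ := h2
    have : w = ⟨z, hzL⟩ := Subtype.ext hwz
    rw [← this]
    exact hw
  rw [hfoc, Subgroup.focalSubgroup_def] at h1
  have h3 : Subgroup.closure {g : ↥L | g ∈ (TL : Subgroup ↥L) ∧
      ∃ x ∈ (TL : Subgroup ↥L), ∃ u : ↥L, g = ⁅x, u⁆} ≤ K.comap L.subtype := by
    rw [Subgroup.closure_le]
    rintro _ ⟨hg, x, hx, u, rfl⟩
    have hxT : x.1 ∈ T := hx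
    have hgT : (⁅x, u⁆ : ↥L).1 ∈ T := hg
    have e1 : (⁅x, u⁆ : ↥L).1 = x.1 * u.1 * x.1⁻¹ * u.1⁻¹ := rfl
    have h4 : u.1 * x.1 * u.1⁻¹ ∈ T := by
      have h5 : (x.1⁻¹ * (x.1 * u.1 * x.1⁻¹ * u.1⁻¹))⁻¹ ∈ T :=
        T.inv_mem (T.mul_mem (T.inv_mem hxT) (e1 ▸ hgT))
      have e2 : (x.1⁻¹ * (x.1 * u.1 * x.1⁻¹ * u.1⁻¹))⁻¹ = u.1 * x.1 * u.1⁻¹ := by group
      rwa [e2] at h5
    have h6 := K.inv_mem (h x.1 hxT u.1 u.2 h4)
    have e3 : (u.1 * x.1 * u.1⁻¹ * x.1⁻¹)⁻¹ = x.1 * u.1 * x.1⁻¹ * u.1⁻¹ := by group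
    rw [e3] at h6
    show (⁅x, u⁆ : ↥L).1 ∈ K
    rw [e1]; exact h6
  exact h3 h1

/-- the transfer relation -/
def TR (D : Subgroup G) (B : Subgroup G) (g : G) : Prop :=
  ∀ b ∈ B, g * b * g⁻¹ * b⁻¹ ∈ D

theorem transfer_WV [Finite G] {p : ℕ} [Fact p.Prime] (S : Sylow p G) (hS : (S : Subgroup G) ≠ ⊥)
    (W V : Subgroup G → Subgroup G) (hW : IsConjugacyFunctor p W) (hV : IsConjugacyFunctor p V)
    (hWZ : ∀ H : Subgroup G, IsPGroup p H → H ⊓ Subgroup.centralizer (H : Set G) ≤ W H)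
    (hVmono : ∀ H K : Subgroup G, IsPGroup p H → IsPGroup p K → H ≠ ⊥ → K ≠ ⊥ →
      H ⊓ Subgroup.centralizer (H : Set G) ≤ K ⊓ Subgroup.centralizer (K : Set G) → V H ≤ V K)
    (hloc : ∀ H : Subgroup G,
      (S : Subgroup G) ⊓ Subgroup.centralizer ((S : Subgroup G) : Set G) ≤ H →
      H ≤ (S : Subgroup G) → ∃ Q : Subgroup G, Q ≤ Subgroup.normalizer (H : Set G) ∧ IsPGroup p Q ∧
        ¬ p ∣ Q.relIndex (Subgroup.normalizer (H : Set G)) ∧
        Q ⊓ ⁅Subgroup.normalizer (H : Set G), Subgroup.normalizer (H : Set G)⁆ ≤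
          (Q ⊓ ⁅Subgroup.normalizer (H : Set G) ⊓ Subgroup.normalizer ((W Q : Subgroup G) : Set G),
              Subgroup.normalizer (H : Set G) ⊓ Subgroup.normalizer ((W Q : Subgroup G) : Set G)⁆) ⊔
          (Q ⊓ ⁅Subgroup.normalizer (H : Set G) ⊓ Subgroup.centralizer ((V Q : Subgroup G) : Set G),
              Subgroup.normalizer (H : Set G) ⊓ Subgroup.centralizer ((V Q : Subgroup G) : Set G)⁆)) :
    (S : Subgroup G) ⊓ ⁅(⊤ : Subgroup G), ⊤⁆ ≤
      ((S : Subgroup G) ⊓ ⁅Subgroup.normalizer ((W (S : Subgroup G) : Subgroup G) : Set G),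
          Subgroup.normalizer ((W (S : Subgroup G) : Subgroup G) : Set G)⁆) ⊔
      ((S : Subgroup G) ⊓ ⁅Subgroup.centralizer ((V (S : Subgroup G) : Subgroup G) : Set G),
          Subgroup.centralizer ((V (S : Subgroup G) : Subgroup G) : Set G)⁆) := by
  set D₁ := (S : Subgroup G) ⊓ ⁅Subgroup.normalizer ((W (S : Subgroup G) : Subgroup G) : Set G),
          Subgroup.normalizer ((W (S : Subgroup G) : Subgroup G) : Set G)⁆ with hD₁
  set D₂ := (S : Subgroup G) ⊓ ⁅Subgroup.centralizer ((V (S : Subgroup G) : Subgroup G) : Set G),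
          Subgroup.centralizer ((V (S : Subgroup G) : Subgroup G) : Set G)⁆ with hD₂
  have hSN : (S : Subgroup G) ≤ Subgroup.normalizer ((W (S : Subgroup G) : Subgroup G) : Set G) :=
    Subgroup.le_normalizer.trans (normalizer_le_normalizer_functor hW S.2)
  have key := centric_skeleton S W (fun T hT => (hW T (S.2.to_le hT)).1)
    (fun T hT => hWZ T (S.2.to_le hT)) (fun T hT g => functor_cj hW (S.2.to_le hT) g)
    (TR (D₁ ⊔ D₂)) ?_ ?_ ?_ ?_ ?_ ?_
  · apply rel_focal_le le_top S.2 (sylow_relIndex_top S)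
    intro x hx u _ hux
    refine key (Subgroup.zpowers x) (Subgroup.zpowers_le.mpr hx) u ?_ x (Subgroup.mem_zpowers x)
    show Subgroup.map _ _ ≤ _
    rw [MonoidHom.map_zpowers, Subgroup.zpowers_le]
    exact hux
  · intro B B' g hB h b hb; exact h b (hB hb)
  · intro B g h h1 h2 b hb
    have h3 := h2 _ (conj_mem_cj (g := g) hb)
    have h4 := (D₁ ⊔ D₂).mul_mem h3 (h1 b hb)
    have e : h * (g * b * g⁻¹) * h⁻¹ * (g * b * g⁻¹)⁻¹ * (g * b * g⁻¹ * b⁻¹) =
        h * g * b * (h * g)⁻¹ * b⁻¹ := by group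
    rwa [e] at h4
  · intro B g h b hb
    have hb' : g⁻¹ * b * g ∈ B := mem_cj.mp hb
    have h1 := (D₁ ⊔ D₂).inv_mem (h _ hb')
    have e : (g * (g⁻¹ * b * g) * g⁻¹ * (g⁻¹ * b * g)⁻¹)⁻¹ = g⁻¹ * b * g⁻¹⁻¹ * b⁻¹ := by group
    rwa [e] at h1
  · intro B g g' h h' b hb
    rw [h' b hb]; exact h b hb
  · intro x hx X hX hxX b hb
    apply Subgroup.mem_sup_left
    refine ⟨?_, ?_⟩
    · exact Subgroup.mul_mem _ (hxX (conj_mem_cj hb)) (Subgroup.inv_mem _ (hX hb))
    · exact Subgroup.commutator_mem_commutator hx (hSN (hX hb))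
  · intro H hZ hHS htame hN y hy X hX hyX b hb
    obtain ⟨Q, hQN, hQp, hQidx, hQ⟩ := hloc H hZ hHS
    obtain ⟨h, hh, hhQ⟩ := sylow_conj hQN hQp hQidx inf_le_right (S.2.to_le inf_le_left) htame
    set N := Subgroup.normalizer (H : Set G) with hNdef
    set T := (S : Subgroup G) ⊓ N with hT
    have hTp : IsPGroup p T := S.2.to_le inf_le_left
    have hQ' := cj_mono h hQ
    rw [show ∀ A B : Subgroup G, cj h (A ⊔ B) = cj h A ⊔ cj h B from fun A B => Subgroup.map_sup _ _ _, cj_inf, cj_inf, cj_inf, cj_commutator, cj_commutator, cj_commutator,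
      cj_inf, cj_inf, cj_self_of_mem hh, cj_normalizer, cj_centralizer, ← functor_cj hW hQp,
      ← functor_cj hV hQp, hhQ] at hQ'
    have h1 : y * b * y⁻¹ * b⁻¹ ∈ T ⊓ ⁅N, N⁆ := by
      refine ⟨T.mul_mem (hyX (conj_mem_cj hb)) (T.inv_mem (hX hb)), ?_⟩
      exact Subgroup.commutator_mem_commutator hy (hX hb).2
    refine (sup_le ?_ ?_ : _ ≤ D₁ ⊔ D₂) (hQ' h1)
    · have hTW : T ≤ Subgroup.normalizer ((W T : Subgroup G) : Set G) :=
        Subgroup.le_normalizer.trans (normalizer_le_normalizer_functor hW hTp)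
      apply rel_focal_le (le_inf inf_le_right hTW) hTp
      · exact relIndex_of_le_of_le (le_inf inf_le_right hTW) inf_le_left htame
      · intro x hx u hu hux
        refine hN u hu.2 (Subgroup.zpowers x) (Subgroup.zpowers_le.mpr hx) ?_ x
          (Subgroup.mem_zpowers x)
        show Subgroup.map _ _ ≤ _
        rw [MonoidHom.map_zpowers, Subgroup.zpowers_le]
        exact hux
    · have hHT : H ≤ T := le_inf hHS Subgroup.le_normalizer
      have hTne : T ≠ ⊥ := by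
        rcases eq_or_lt_of_le hHS with heq | hlt
        · rw [hT, hNdef, heq, inf_of_le_left Subgroup.le_normalizer]; exact hS
        · exact ne_bot_of_gt (lt_inf_normalizer S.2 hlt)
      have hVV : V (S : Subgroup G) ≤ V T := by
        apply hVmono _ _ S.2 hTp hS hTne
        exact le_inf (hZ.trans hHT) (inf_le_right.trans (Subgroup.centralizer_le inf_le_left))
      have hle : N ⊓ Subgroup.centralizer ((V T : Subgroup G) : Set G) ≤
          Subgroup.centralizer ((V (S : Subgroup G) : Subgroup G) : Set G) :=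
        inf_le_right.trans (Subgroup.centralizer_le hVV)
      exact le_sup_of_le_right (inf_le_inf inf_le_left (Subgroup.commutator_mono hle hle))

end Cfsg.Agent.Lib.Helper57.FC
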