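import Mathlib
import Cfsg.Agent.Lib.Helper57.SLCent1

set_option autoImplicit false

namespace Cfsg.Agent.Lib.Helper57.SLC

open Matrix Subgroup
open Cfsg.Agent.Lib.Helper59 (zSL sl2_mul_self_eq_one two_ne_zero_of_odd_card)

section grp

variable {G : Type*} [Group G]

/-- the key step: the `K`-component of an element of `L1` lies in `L1`. -/
theorem comp_mem (L1 L2 K K' : Subgroup G) (j : G) (hjj : j * j = 1) (hj1 : j ∈ L1)
    (hc : ∀ x ∈ L1, ∀ y ∈ L2, x * y = y * x)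
    (hk : ∀ x ∈ K, ∀ y ∈ K', x * y = y * x)
    (hKK : ∀ x, x ∈ K → x ∈ K' → x = 1 ∨ x = j)
    (hL2 : ∀ b ∈ L2, ∃ k ∈ K, ∃ k' ∈ K', b = k * k')
    (hK : ∀ k ∈ K, ∃ l1 ∈ L1, ∃ l2 ∈ L2, k = l1 * l2)
    (hodd : ∀ M : Subgroup G, (∀ x ∈ L2, Odd (orderOf x) → x ∈ M) → L2 ≤ M)
    (hcen : ∀ z ∈ L2, (∀ y ∈ L2, z * y = y * z) → z = 1 ∨ z = j)
    (k k' : G) (hk1 : k ∈ K) (hk2 : k' ∈ K') (ha : k * k' ∈ L1) : k ∈ L1 := by
  -- commutators with `L2`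
  have h1 : ∀ b ∈ L2, k * b * k⁻¹ = b ∨ k * b * k⁻¹ = j * b := by
    intro b hb
    obtain ⟨l, hl, l', hl', rfl⟩ := hL2 b hb
    have e1 : k * (l * l') * k⁻¹ * (l * l')⁻¹ = k * l * k⁻¹ * l⁻¹ := by
      have := hk k hk1 l' hl'
      have h' : l' * k⁻¹ = k⁻¹ * l' := by
        have := hk k⁻¹ (K.inv_mem hk1) l' hl'
        exact this.symm
      calc k * (l * l') * k⁻¹ * (l * l')⁻¹ = k * l * (l' * k⁻¹) * l'⁻¹ * l⁻¹ := by group
        _ = k * l * (k⁻¹ * l') * l'⁻¹ * l⁻¹ := by rw [h']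
        _ = k * l * k⁻¹ * l⁻¹ := by group
    have e2 : k' * (l * l') * k'⁻¹ * (l * l')⁻¹ = k' * l' * k'⁻¹ * l'⁻¹ := by
      have h' : k' * l = l * k' := (hk l hl k' hk2).symm
      have h'' : l * (k' * l' * k'⁻¹ * l'⁻¹) = (k' * l' * k'⁻¹ * l'⁻¹) * l :=
        hk l hl _ (K'.mul_mem (K'.mul_mem (K'.mul_mem hk2 hl') (K'.inv_mem hk2)) (K'.inv_mem hl'))
      calc k' * (l * l') * k'⁻¹ * (l * l')⁻¹ = (k' * l) * l' * k'⁻¹ * l'⁻¹ * l⁻¹ := by group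
        _ = (l * k') * l' * k'⁻¹ * l'⁻¹ * l⁻¹ := by rw [h']
        _ = l * (k' * l' * k'⁻¹ * l'⁻¹) * l⁻¹ := by group
        _ = (k' * l' * k'⁻¹ * l'⁻¹) * l * l⁻¹ := by rw [h'']
        _ = k' * l' * k'⁻¹ * l'⁻¹ := by group
    have hcK : k * (l * l') * k⁻¹ * (l * l')⁻¹ ∈ K := by
      rw [e1]
      exact K.mul_mem (K.mul_mem (K.mul_mem hk1 hl) (K.inv_mem hk1)) (K.inv_mem hl)
    have hcK' : k' * (l * l') * k'⁻¹ * (l * l')⁻¹ ∈ K' := by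
      rw [e2]
      exact K'.mul_mem (K'.mul_mem (K'.mul_mem hk2 hl') (K'.inv_mem hk2)) (K'.inv_mem hl')
    obtain ⟨b, hbdef⟩ : ∃ b, b = l * l' := ⟨_, rfl⟩
    rw [← hbdef] at hcK hcK' hb ⊢
    have hab := hc _ ha b hb
    have e3 : (k' * b * k'⁻¹ * b⁻¹) * (k * b * k⁻¹ * b⁻¹) = 1 := by
      have h' := hk k hk1 _ hcK'
      calc (k' * b * k'⁻¹ * b⁻¹) * (k * b * k⁻¹ * b⁻¹)
          = ((k' * b * k'⁻¹ * b⁻¹) * k) * b * k⁻¹ * b⁻¹ := by group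
        _ = (k * (k' * b * k'⁻¹ * b⁻¹)) * b * k⁻¹ * b⁻¹ := by rw [h']
        _ = (k * k' * b) * (k * k')⁻¹ * b⁻¹ := by group
        _ = (b * (k * k')) * (k * k')⁻¹ * b⁻¹ := by rw [hab]
        _ = 1 := by group
    have hcK2 : k * b * k⁻¹ * b⁻¹ ∈ K' := by
      have : k * b * k⁻¹ * b⁻¹ = (k' * b * k'⁻¹ * b⁻¹)⁻¹ := (inv_eq_of_mul_eq_one_right e3).symm
      rw [this]
      exact K'.inv_mem hcK'
    rcases hKK _ hcK hcK2 with h | h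
    · left
      calc k * b * k⁻¹ = (k * b * k⁻¹ * b⁻¹) * b := by group
        _ = b := by rw [h, one_mul]
    · right
      calc k * b * k⁻¹ = (k * b * k⁻¹ * b⁻¹) * b := by group
        _ = j * b := by rw [h]
  have h2 : L2 ≤ centralizer {k} := by
    apply hodd
    intro b hb hbo
    have h3 : k * b * k⁻¹ = b := by
      rcases h1 b hb with h | h
      · exact h
      · obtain ⟨m, hm⟩ := hbo
        have hjb : Commute j b := hc j hj1 b hb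
        have e1 : (j * b) ^ orderOf b = j := by
          rw [hjb.mul_pow, pow_orderOf_eq_one, mul_one, hm, pow_succ, pow_mul, pow_two, hjj,
            one_pow, one_mul]
        have e2 : (k * b * k⁻¹) ^ orderOf b = 1 := by
          rw [conj_pow, pow_orderOf_eq_one]; group
        rw [h, e1] at e2
        rw [h, e2, one_mul]
    rw [mem_centralizer_singleton_iff]
    calc b * k = (k * b * k⁻¹)⁻¹⁻¹ * k := by rw [h3, inv_inv]
      _ = k * b := by group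
  obtain ⟨l1, hl1, l2, hl2, hkl⟩ := hK k hk1
  have h3 : ∀ y ∈ L2, l2 * y = y * l2 := by
    intro y hy
    have e1 : y * k = k * y := by
      have := h2 hy
      rwa [mem_centralizer_singleton_iff] at this
    have e2 : l1⁻¹ * y = y * l1⁻¹ := hc _ (L1.inv_mem hl1) y hy
    have e3 : l2 = l1⁻¹ * k := by rw [hkl]; group
    calc l2 * y = l1⁻¹ * (k * y) := by rw [e3]; group
      _ = l1⁻¹ * (y * k) := by rw [e1]
      _ = (l1⁻¹ * y) * k := by group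
      _ = (y * l1⁻¹) * k := by rw [e2]
      _ = y * l2 := by rw [e3]; group
  rw [hkl]
  rcases hcen l2 hl2 h3 with h | h
  · rw [h, mul_one]; exact hl1
  · rw [h]; exact L1.mul_mem hl1 hj1

theorem le_or_le (L1 L2 K K' : Subgroup G) (j : G) (hjj : j * j = 1) (hj1 : j ∈ L1)
    (hc : ∀ x ∈ L1, ∀ y ∈ L2, x * y = y * x)
    (hk : ∀ x ∈ K, ∀ y ∈ K', x * y = y * x)
    (hKK : ∀ x, x ∈ K → x ∈ K' → x = 1 ∨ x = j)
    (hL1 : ∀ b ∈ L1, ∃ k ∈ K, ∃ k' ∈ K', b = k * k')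
    (hL2 : ∀ b ∈ L2, ∃ k ∈ K, ∃ k' ∈ K', b = k * k')
    (hK : ∀ k ∈ K, ∃ l1 ∈ L1, ∃ l2 ∈ L2, k = l1 * l2)
    (hK' : ∀ k ∈ K', ∃ l1 ∈ L1, ∃ l2 ∈ L2, k = l1 * l2)
    (hodd : ∀ M : Subgroup G, (∀ x ∈ L2, Odd (orderOf x) → x ∈ M) → L2 ≤ M)
    (hcen : ∀ z ∈ L2, (∀ y ∈ L2, z * y = y * z) → z = 1 ∨ z = j)
    (hind : ∀ A₁ A₂ : Subgroup G, A₁ ≤ L1 → A₂ ≤ L1 → (∀ x ∈ L1, ∀ a ∈ A₁, x * a * x⁻¹ ∈ A₁) →
      (∀ x ∈ L1, ∀ a ∈ A₂, x * a * x⁻¹ ∈ A₂) → (∀ a ∈ A₁, ∀ b ∈ A₂, a * b = b * a) →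
      (∀ x ∈ L1, ∃ a ∈ A₁, ∃ b ∈ A₂, x = a * b) → L1 ≤ A₁ ∨ L1 ≤ A₂) :
    L1 ≤ K ∨ L1 ≤ K' := by
  have c1 : ∀ k ∈ K, ∀ k' ∈ K', k * k' ∈ L1 → k ∈ L1 := fun k hk1 k' hk2 ha =>
    comp_mem L1 L2 K K' j hjj hj1 hc hk hKK hL2 hK hodd hcen k k' hk1 hk2 ha
  have c2 : ∀ k ∈ K, ∀ k' ∈ K', k * k' ∈ L1 → k' ∈ L1 := fun k hk1 k' hk2 ha =>
    comp_mem L1 L2 K' K j hjj hj1 hc (fun x hx y hy => (hk y hy x hx).symm)
      (fun x hx hx' => hKK x hx' hx) (by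
        intro b hb
        obtain ⟨l, hl, l', hl', rfl⟩ := hL2 b hb
        exact ⟨l', hl', l, hl, hk l hl l' hl'⟩) hK' hodd hcen k' k hk2 hk1
      (by rw [← hk k hk1 k' hk2]; exact ha)
  refine (hind (L1 ⊓ K) (L1 ⊓ K') inf_le_left inf_le_left ?_ ?_ ?_ ?_).imp
    (fun h => h.trans inf_le_right) (fun h => h.trans inf_le_right)
  · intro x hx a ha
    refine ⟨L1.mul_mem (L1.mul_mem hx ha.1) (L1.inv_mem hx), ?_⟩
    obtain ⟨l, hl, l', hl', rfl⟩ := hL1 x hx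
    have h' : l' * a = a * l' := (hk a ha.2 l' hl').symm
    have : l * l' * a * (l * l')⁻¹ = l * a * l⁻¹ := by
      calc l * l' * a * (l * l')⁻¹ = l * (l' * a) * l'⁻¹ * l⁻¹ := by group
        _ = l * (a * l') * l'⁻¹ * l⁻¹ := by rw [h']
        _ = l * a * l⁻¹ := by group
    show l * l' * a * (l * l')⁻¹ ∈ K
    rw [this]
    exact K.mul_mem (K.mul_mem hl ha.2) (K.inv_mem hl)
  · intro x hx a ha
    refine ⟨L1.mul_mem (L1.mul_mem hx ha.1) (L1.inv_mem hx), ?_⟩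
    obtain ⟨l, hl, l', hl', rfl⟩ := hL1 x hx
    have h' : l * (l' * a * l'⁻¹) = (l' * a * l'⁻¹) * l :=
      hk l hl _ (K'.mul_mem (K'.mul_mem hl' ha.2) (K'.inv_mem hl'))
    have : l * l' * a * (l * l')⁻¹ = l' * a * l'⁻¹ := by
      calc l * l' * a * (l * l')⁻¹ = l * (l' * a * l'⁻¹) * l⁻¹ := by group
        _ = (l' * a * l'⁻¹) * l * l⁻¹ := by rw [h']
        _ = l' * a * l'⁻¹ := by group
    show l * l' * a * (l * l')⁻¹ ∈ K'
    rw [this]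
    exact K'.mul_mem (K'.mul_mem hl' ha.2) (K'.inv_mem hl')
  · intro a ha b hb
    exact hk a ha.2 b hb.2
  · intro x hx
    obtain ⟨l, hl, l', hl', rfl⟩ := hL1 x hx
    exact ⟨l, ⟨c1 l hl l' hl' hx, hl⟩, l', ⟨c2 l hl l' hl' hx, hl'⟩, rfl⟩

end grp

section transport

variable {G : Type*} [Group G] {F : Type*} [Field F] [Fintype F]

local notation "SL" => SpecialLinearGroup (Fin 2) F

theorem t_odd (hF : Odd (Fintype.card F)) (L : Subgroup G) (φ : SL →* G)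
    (hφ : Function.Injective φ) (hr : ∀ y, y ∈ L ↔ ∃ x, φ x = y) :
    ∀ M : Subgroup G, (∀ x ∈ L, Odd (orderOf x) → x ∈ M) → L ≤ M := by
  intro M hM y hy
  obtain ⟨x, rfl⟩ := (hr y).1 hy
  have h1 : closure {x : SL | Odd (orderOf x)} ≤ M.comap φ := by
    rw [closure_le]
    intro z hz
    have hz' : Odd (orderOf z) := hz
    show φ z ∈ M
    apply hM _ ((hr _).2 ⟨z, rfl⟩)
    rwa [orderOf_injective φ hφ]
  rw [closure_odd hF] at h1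
  exact h1 (mem_top x)

theorem t_j (hF : Odd (Fintype.card F)) (φ : SL →* G)
    (hφ : Function.Injective φ) (x : SL) (hj : orderOf (φ x) = 2) : x = zSL := by
  rw [orderOf_injective φ hφ] at hj
  have h1 : x * x = 1 := by
    have := pow_orderOf_eq_one x
    rw [hj, pow_two] at this
    exact this
  rcases sl2_mul_self_eq_one (two_ne_zero_of_odd_card hF) x h1 with h | h
  · rw [h, orderOf_one] at hj; omega
  · exact h

theorem t_cen (hF : Odd (Fintype.card F)) (L : Subgroup G) (φ : SL →* G)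
    (hφ : Function.Injective φ) (hr : ∀ y, y ∈ L ↔ ∃ x, φ x = y) (j : G) (hj : orderOf j = 2)
    (hjL : j ∈ L) :
    ∀ z ∈ L, (∀ y ∈ L, z * y = y * z) → z = 1 ∨ z = j := by
  intro z hz hzc
  obtain ⟨c, rfl⟩ := (hr z).1 hz
  obtain ⟨x, rfl⟩ := (hr j).1 hjL
  have hx := t_j hF φ hφ x hj
  rcases central (two_ne_zero_of_odd_card hF) c (by
    intro b
    apply hφ
    rw [map_mul, map_mul]
    exact hzc _ ((hr _).2 ⟨b, rfl⟩)) with h | h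
  · left; rw [h, map_one]
  · right; rw [h, hx]

theorem t_ind (hF : Odd (Fintype.card F)) (L : Subgroup G) (φ : SL →* G)
    (hφ : Function.Injective φ) (hr : ∀ y, y ∈ L ↔ ∃ x, φ x = y) :
    ∀ A₁ A₂ : Subgroup G, A₁ ≤ L → A₂ ≤ L → (∀ x ∈ L, ∀ a ∈ A₁, x * a * x⁻¹ ∈ A₁) →
      (∀ x ∈ L, ∀ a ∈ A₂, x * a * x⁻¹ ∈ A₂) → (∀ a ∈ A₁, ∀ b ∈ A₂, a * b = b * a) →
      (∀ x ∈ L, ∃ a ∈ A₁, ∃ b ∈ A₂, x = a * b) → L ≤ A₁ ∨ L ≤ A₂ := by
  intro A₁ A₂ h1 h2 n1 n2 hc hd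
  rcases indec hF (A₁.comap φ) (A₂.comap φ) ⟨fun a ha x => by
      show φ (x * a * x⁻¹) ∈ A₁
      rw [map_mul, map_mul, map_inv]
      exact n1 _ ((hr _).2 ⟨x, rfl⟩) _ ha⟩ ⟨fun a ha x => by
      show φ (x * a * x⁻¹) ∈ A₂
      rw [map_mul, map_mul, map_inv]
      exact n2 _ ((hr _).2 ⟨x, rfl⟩) _ ha⟩ (fun a ha b hb => by
      apply hφ
      rw [map_mul, map_mul]
      exact hc _ ha _ hb) (fun x => by
      obtain ⟨a, ha, b, hb, hab⟩ := hd _ ((hr _).2 ⟨x, rfl⟩)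
      obtain ⟨a', rfl⟩ := (hr a).1 (h1 ha)
      obtain ⟨b', rfl⟩ := (hr b).1 (h2 hb)
      refine ⟨a', ha, b', hb, ?_⟩
      apply hφ
      rw [map_mul]
      exact hab) with h | h
  · left
    intro y hy
    obtain ⟨x, rfl⟩ := (hr y).1 hy
    have : x ∈ A₁.comap φ := by rw [h]; exact mem_top x
    exact this
  · right
    intro y hy
    obtain ⟨x, rfl⟩ := (hr y).1 hy
    have : x ∈ A₂.comap φ := by rw [h]; exact mem_top x
    exact this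

theorem f_inj {a b : ℕ} (ha : 1 < a) (hb : 1 < b) (h : a * (a ^ 2 - 1) = b * (b ^ 2 - 1)) :
    a = b := by
  have key : ∀ {a b : ℕ}, 1 < a → a < b → a * (a ^ 2 - 1) < b * (b ^ 2 - 1) := by
    intro a b ha hab
    have h1 : a ^ 2 < b ^ 2 := Nat.pow_lt_pow_left hab (by norm_num)
    have h2 : 1 ≤ a ^ 2 := Nat.one_le_pow _ _ (by omega)
    have h3 : a ^ 2 - 1 < b ^ 2 - 1 := by omega
    exact Nat.mul_lt_mul'' hab h3
  rcases lt_trichotomy a b with h' | h' | h'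
  · have := key ha h'; omega
  · exact h'
  · have := key hb h'; omega

end transport

end Cfsg.Agent.Lib.Helper57.SLC
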